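import Groth.Agent.Dual.H342.PtChart

/-!
# Complexes which are locally dualizing and normalized at closed points: the lowest cohomology sheaf

Let `X` be a quasi-compact scheme, `K ∈ D(O_X)` with `PerfA.CohDim.Hyp K` (locally the tilde of a
dualizing complex, normalized at the closed points of `X`), `dim X ≤ n`.
* `hasSk_two`: the stalks of `H^{-n}(K)` satisfy `(S_2)`;
* `support_lowest_eq`: if `dim X = n`, the support of `H^{-n}(K)` is the union of the irreducible
  components of dimension `n`;
* `exists_nontrivial_iff_depth_le`: at closed points the cohomology detects the depth.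
-/

set_option autoImplicit false
universe u
open CategoryTheory CategoryTheory.Limits AlgebraicGeometry TopologicalSpace Opposite Topology
attribute [local instance] HasDerivedCategory.standard

namespace Groth.Agent.Dual.H342.NormSch

open AlgebraicGeometry.Scheme.Modules Groth.Agent.PerfA.Restrict Groth.Agent.PerfA.TildeSupp
  Groth.Agent.PerfA.PointHom Groth.Agent.PerfC.Supp Groth.Agent.CohqB Groth.Agent.PerfA.CohDim
  Groth.Agent.CalgB.DzData Groth.Agent.PerfA Groth.Agent Groth.Agent.Dual.H342.PtChart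

variable {X : Scheme.{u}} {K : DCoh.D X}

theorem nontrivial_iff_mem_supp (i : ℤ) (x : X) :
    Nontrivial ((DCoh.HD K i).presheaf.stalk x) ↔ x ∈ supp K i :=
  not_subsingleton_iff_nontrivial.symm

/-- The stalks of the lowest cohomology sheaf satisfy `(S_2)`. -/
theorem hasSk_two [CompactSpace X] (hK : Hyp K) (n : ℕ) (hn : topologicalKrullDim X ≤ n) (x : X) :
    LocCoh.HasSk 2 (X.presheaf.stalk x) ((DCoh.HD K (-(n : ℤ))).presheaf.stalk x) := by
  obtain ⟨z, hz, hxz⟩ := TopDim.exists_closed_specializes x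
  obtain ⟨c⟩ := nonempty_chart hK z hz
  obtain ⟨q, hqy, hqx⟩ := c.exists_prime x hxz
  subst hqx
  obtain ⟨σ, τ, h⟩ := c.exists_semilinear (-(n : ℤ)) q
  refine Ega4B.SkLocal.hasSk_of_semilinearEquiv 2
    (σ : Localization.AtPrime q.asIdeal →+* X.presheaf.stalk (c.pt q)) σ.bijective τ h ?_
  refine S2Alg.hasSk_two_localized c.dual c.isDelta _ (fun i hi => ?_) q (fun r hr => ?_)
  · exact c.isZero_homology i ((hK.bounds n hn).1 i (Or.inl hi))
  · rw [neg_neg]
    exact (c.delta_bounds n hn r (hr.trans hqy)).2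

/-- The support of the lowest cohomology sheaf is the union of the irreducible components of
dimension `dim X`. -/
theorem support_lowest_eq [CompactSpace X] (hK : Hyp K) (n : ℕ)
    (hn : topologicalKrullDim X = (n : WithBot ℕ∞)) :
    {x : X | Nontrivial ((DCoh.HD K (-(n : ℤ))).presheaf.stalk x)} =
      ⋃ Z ∈ {Z : Set X | Z ∈ irreducibleComponents X ∧
        topologicalKrullDim ↥Z = (n : WithBot ℕ∞)}, Z := by
  ext x
  rw [Set.mem_ofPred_eq, nontrivial_iff_mem_supp, Set.mem_iUnion₂]
  constructor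
  · intro hx
    obtain ⟨z, hz, hxz⟩ := TopDim.exists_closed_specializes x
    obtain ⟨c⟩ := nonempty_chart hK z hz
    obtain ⟨p, hpy, hpx⟩ := c.exists_prime x hxz
    subst hpx
    have hle : ∀ q : PrimeSpectrum c.A, q ≤ p → c.δ q ≤ -(-(n : ℤ)) := fun q hq => by
      rw [neg_neg]
      exact (c.delta_bounds n hn.le q (hq.trans hpy)).2
    rw [c.mem_supp_iff, S2Alg.mem_support_lowest_iff c.isDelta _ p hle] at hx
    obtain ⟨q, hqp, hq⟩ := hx
    obtain ⟨s, h1, h2, h3⟩ := LoccohA.DimFun.exists_ltSeries c.isDelta.cov (hqp.trans hpy)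
    rw [c.zero, zero_add, hq, neg_neg] at h3
    have hlen : s.length = n := by exact_mod_cast h3.symm
    obtain ⟨Z, hZ, hqZ⟩ := exists_mem_irreducibleComponents_subset_of_isIrreducible
      (closure {c.pt q}) isIrreducible_singleton.closure
    have hZc : IsClosed Z := isClosed_of_mem_irreducibleComponents Z hZ
    have hmem : ∀ r : PrimeSpectrum c.A, q ≤ r → c.pt r ∈ Z := fun r hr =>
      hqZ (specializes_iff_mem_closure.1 ((c.le_iff q r).2 hr))
    refine ⟨Z, ⟨hZ, le_antisymm ?_ ?_⟩, hmem p hqp⟩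
    · exact (topologicalKrullDim_subspace_le X Z).trans hn.le
    · subst hlen
      refine TopChain.le_topologicalKrullDim_subset Z s.length (fun i => c.pt (s i)) (fun i => ?_)
        (fun i j hij => ?_)
      · exact hmem _ (by rw [← h1]; exact s.monotone (Fin.zero_le i))
      · have h4 : s i < s j := s.strictMono hij
        exact ⟨(c.le_iff _ _).2 h4.le, fun h5 => h4.ne (c.pt_injective h5)⟩
  · rintro ⟨Z, ⟨hZ, hdim⟩, hxZ⟩
    have hZc : IsClosed Z := isClosed_of_mem_irreducibleComponents Z hZ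
    obtain ⟨t, htZ, ht⟩ := TopChain.exists_chain_of_dim Z hZc n hdim.ge
    obtain ⟨z, hz, hxz⟩ := TopDim.exists_closed_specializes (t (Fin.last n))
    obtain ⟨c⟩ := nonempty_chart hK z hz
    have ht' : ∀ i, t i ⤳ z := fun i => by
      rcases (Fin.le_last i).lt_or_eq with h | h
      · exact (ht i _ h).1.trans hxz
      · rw [h]; exact hxz
    choose q hqy hq using fun i => c.exists_prime (t i) (ht' i)
    have hmono : StrictMono q := fun a b hab => by
      refine lt_of_le_of_ne ((c.le_iff _ _).1 (by rw [hq, hq]; exact (ht a b hab).1)) fun h => ?_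
      exact (ht a b hab).2 (by rw [← hq, ← hq, h])
    let s : LTSeries (PrimeSpectrum c.A) :=
      { length := n, toFun := q, step := fun a => hmono Fin.castSucc_lt_succ }
    have h1 : (n : ℤ) ≤ c.δ (q 0) - c.δ (q (Fin.last n)) :=
      LoccohA.DimFun.length_le c.isDelta.cov s
    have h2 := c.delta_bounds n hn.le (q 0) (hqy 0)
    have h3 := c.delta_bounds n hn.le (q (Fin.last n)) (hqy _)
    have h4 : c.δ (q 0) = n := by omega
    -- the generic point of `Z`
    have hZirr : IsIrreducible Z := hZ.1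
    obtain ⟨η, hη⟩ := QuasiSober.sober hZirr hZc
    have hη0 : η ⤳ t 0 := by
      rw [specializes_iff_mem_closure, hη.def]
      exact htZ 0
    obtain ⟨r, hry, hr⟩ := c.exists_prime η (hη0.trans (ht' 0))
    have hrq : r ≤ q 0 := (c.le_iff _ _).1 (by rw [hr, hq]; exact hη0)
    have hr0 : r = q 0 := by
      rcases hrq.eq_or_lt with h | h
      · exact h
      · have h5 := LoccohA.DimFun.lt_of_lt c.isDelta.cov h
        have h6 := c.delta_bounds n hn.le r hry
        omega
    have hmem : η ∈ supp K (-(n : ℤ)) := by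
      rw [← hr, c.mem_supp_iff, S2Alg.mem_support_lowest_iff c.isDelta _ r (fun q' hq' => by
        rw [neg_neg]
        exact (c.delta_bounds n hn.le q' (hq'.trans hry)).2)]
      exact ⟨r, le_rfl, by rw [hr0, h4, neg_neg]⟩
    have hηx : η ⤳ x := by
      rw [specializes_iff_mem_closure, hη.def]
      exact hxZ
    exact hηx.mem_closed (hK.isClosed_supp _) hmem

theorem depth_stalk_congr {x x' : X} (h : x = x') :
    LocCoh.depth (X.presheaf.stalk x) (X.presheaf.stalk x) =
      LocCoh.depth (X.presheaf.stalk x') (X.presheaf.stalk x') := by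
  subst h; rfl

/-- At a closed point, `k ≤ depth O_{X,x}` iff `H^{-d}(K)_x = 0` for all `d < k`. -/
theorem natCast_le_depth_iff (hK : Hyp K) (x : X) (hx : IsClosed ({x} : Set X)) (k : ℕ) :
    (k : ℕ∞) ≤ LocCoh.depth (X.presheaf.stalk x) (X.presheaf.stalk x) ↔
      ∀ d : ℕ, d < k → x ∉ supp K (-(d : ℤ)) := by
  obtain ⟨c⟩ := nonempty_chart hK x hx
  obtain ⟨σ, -, -⟩ := c.exists_semilinear 0 c.y
  have h1 : LocCoh.depth (Localization.AtPrime c.y.asIdeal)
      (LocalizedModule c.y.asIdeal.primeCompl c.A) =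
      LocCoh.depth (Localization.AtPrime c.y.asIdeal) (Localization.AtPrime c.y.asIdeal) := by
    have e0 := IsLocalizedModule.linearEquiv c.y.asIdeal.primeCompl
      (LocalizedModule.mkLinearMap c.y.asIdeal.primeCompl c.A)
      (Algebra.linearMap c.A (Localization.AtPrime c.y.asIdeal))
    have e : LocalizedModule c.y.asIdeal.primeCompl c.A ≃ₗ[Localization.AtPrime c.y.asIdeal]
        Localization.AtPrime c.y.asIdeal :=
      LinearEquiv.extendScalarsOfIsLocalization c.y.asIdeal.primeCompl
        (Localization.AtPrime c.y.asIdeal) e0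
    exact CalgA.DepthSmall.depth_congr e
  have h2 : LocCoh.depth (X.presheaf.stalk x) (X.presheaf.stalk x) =
      LocCoh.depth (Localization.AtPrime c.y.asIdeal)
        (LocalizedModule c.y.asIdeal.primeCompl c.A) := by
    rw [h1, depth_stalk_congr c.pt_y.symm]
    exact (CalgA.DepthSmall.depth_ringEquiv σ).symm
  rw [h2, c.isDelta.natCast_le_depth_iff c.y c.A k]
  refine forall₂_congr fun d _ => not_congr ?_
  rw [c.zero, neg_zero, zero_sub, ← support_HD, ← c.mem_supp_iff, c.pt_y]

/-- At a closed point `x`, some `H^j(K)_x` with `i ≤ j ≤ 0` is nonzero iff `i ≤ 0` and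
`depth O_{X,x} ≤ -i`. -/
theorem exists_nontrivial_iff_depth_le (hK : Hyp K) (x : X) (hx : IsClosed ({x} : Set X)) (i : ℤ) :
    (∃ j : ℤ, i ≤ j ∧ j ≤ 0 ∧ Nontrivial ((DCoh.HD K j).presheaf.stalk x)) ↔
      (LocCoh.depth (X.presheaf.stalk x) (X.presheaf.stalk x) : ℕ∞) ≤ ((-i).toNat : ℕ∞) ∧
        i ≤ 0 := by
  constructor
  · rintro ⟨j, h1, h2, h3⟩
    refine ⟨?_, h1.trans h2⟩
    by_contra hlt
    rw [not_le] at hlt
    have h4 : (((-i).toNat + 1 : ℕ) : ℕ∞) ≤
        LocCoh.depth (X.presheaf.stalk x) (X.presheaf.stalk x) := by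
      rw [Nat.cast_add, Nat.cast_one]
      exact Order.add_one_le_of_lt hlt
    refine (natCast_le_depth_iff hK x hx _).1 h4 (-j).toNat (by omega) ?_
    rw [show -(((-j).toNat : ℕ) : ℤ) = j by omega]
    exact (nontrivial_iff_mem_supp j x).1 h3
  · rintro ⟨h1, h2⟩
    by_contra hne
    have h4 : (((-i).toNat + 1 : ℕ) : ℕ∞) ≤
        LocCoh.depth (X.presheaf.stalk x) (X.presheaf.stalk x) :=
      (natCast_le_depth_iff hK x hx _).2 fun d hd hmem =>
        hne ⟨-(d : ℤ), by omega, by omega, (nontrivial_iff_mem_supp _ x).2 hmem⟩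
    have h5 : (((-i).toNat + 1 : ℕ) : ℕ∞) ≤ (((-i).toNat : ℕ) : ℕ∞) := h4.trans h1
    have h6 : (-i).toNat + 1 ≤ (-i).toNat := by exact_mod_cast h5
    omega

end Groth.Agent.Dual.H342.NormSch
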