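import Groth.Agent.CalgB.DzData
import Groth.Agent.LoccohA.DzTrunc2
import Groth.Agent.Ega4B.SkLocal

/-!
# The lowest cohomology module of a dualizing complex is `(S_2)`

Version of the second half of `S0369` without a local hypothesis.
-/

set_option autoImplicit false
universe u v
open CategoryTheory
attribute [local instance] HasDerivedCategory.standard

namespace Groth.Agent.Dual.H342.S2Alg

open Groth.Agent Groth.Agent.CalgB.DzData

variable {A : Type u} [CommRing A] [IsNoetherianRing A] {ω : Dual.D A} {δ : PrimeSpectrum A → ℤ}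

/-- `Supp H^c(ω)` for `c` such that `δ ≤ -c` below `p`. -/
theorem mem_support_lowest_iff (h : IsDelta ω δ) (c : ℤ) (p : PrimeSpectrum A)
    (hp : ∀ q : PrimeSpectrum A, q ≤ p → δ q ≤ -c) :
    p ∈ Module.support A (Dual.HD A ω c) ↔ ∃ q : PrimeSpectrum A, q ≤ p ∧ δ q = -c := by
  rw [support_HD]
  constructor
  · intro hp'
    obtain ⟨q, -, hqp, hq⟩ := h.exists_le_of_mem p A _ hp'
    exact ⟨q, hqp, by have := hp q hqp; omega⟩
  · rintro ⟨q, hqp, hqd⟩
    -- `q` is a minimal prime
    obtain ⟨r, hr, hrq⟩ := Ideal.exists_minimalPrimes_le (I := (⊥ : Ideal A)) (J := q.asIdeal)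
      bot_le
    have hrprime : r.IsPrime := hr.1.1
    have hqmin : q.asIdeal ∈ minimalPrimes A := by
      rcases (show (⟨r, hrprime⟩ : PrimeSpectrum A) ≤ q from hrq).eq_or_lt with h1 | h1
      · rw [← h1]; exact hr
      · have h2 := LoccohA.DimFun.lt_of_lt h.cov h1
        have h3 := hp ⟨r, hrprime⟩ (h1.le.trans hqp)
        omega
    have h2 : q.asIdeal ∈ associatedPrimes A A := by
      refine Module.associatedPrimes.minimalPrimes_annihilator_subset_associatedPrimes A A ?_
      rw [Module.annihilator_eq_bot.mpr inferInstance]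
      exact hqmin
    have h3 := h.mem_of_mem_associatedPrimes q A h2
    rw [hqd, neg_neg] at h3
    exact support_mono hqp h3

/-- The depth of the stalk of the lowest cohomology module `H^c(ω)` at `P`. -/
theorem min_le_depth_lowest (hω : Dual.IsDualizing A ω) (h : IsDelta ω δ) (c : ℤ)
    (hzero : ∀ i : ℤ, i < c → CategoryTheory.Limits.IsZero
      ((DerivedCategory.homologyFunctor (ModuleCat.{u} A) i).obj ω))
    (P : PrimeSpectrum A) (hP : ∀ q : PrimeSpectrum A, q ≤ P → δ q ≤ -c) :
    min ((2 : ℕ) : WithBot ℕ∞) (Module.supportDim (Localization.AtPrime P.asIdeal)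
      (LocalizedModule P.asIdeal.primeCompl (Dual.HD A ω c))) ≤
    ((LocCoh.depth (Localization.AtPrime P.asIdeal)
      (LocalizedModule P.asIdeal.primeCompl (Dual.HD A ω c)) : ℕ∞) : WithBot ℕ∞) := by
  obtain ⟨n, hn'⟩ : ∃ n : ℕ, δ P + n = -c :=
    ⟨(-c - δ P).toNat, by have := hP P le_rfl; omega⟩
  have hfin : Module.Finite A (Dual.HD A ω c) := hω.finite_cohomology _
  have hdim : Module.supportDim (Localization.AtPrime P.asIdeal)
      (LocalizedModule P.asIdeal.primeCompl (Dual.HD A ω c)) ≤ n :=
    h.supportDim_le P _ n (fun q _ hq => by have := hP q hq; omega)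
  have hωGE : ω.IsGE c := by
    rw [DerivedCategory.isGE_iff]
    exact hzero
  obtain ⟨a, b, hab⟩ := hω.finite_injective_dimension
  have hωLE : ω.IsLE b := by
    rw [DerivedCategory.isLE_iff]
    intro j hj
    exact LoccohB.InjRep.isZero_homology_of_subsingleton ω j (hab A j (Or.inr hj))
  have key : ((min 2 n : ℕ) : ℕ∞) ≤ LocCoh.depth (Localization.AtPrime P.asIdeal)
      (LocalizedModule P.asIdeal.primeCompl (Dual.HD A ω c)) := by
    rw [h.natCast_le_depth_iff P]
    intro e he
    have he2 : e < 2 := lt_of_lt_of_le he (min_le_left _ _)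
    have hen : e < n := lt_of_lt_of_le he (min_le_right _ _)
    have hvan : ∀ (M : Type u) [AddCommGroup M] [Module A M] [Module.Finite A M] (i : ℤ),
        -δ P < i → LoccohA.DzExact.VanAt A P.asIdeal (LoccohA.DExt.E ω i M) := by
      intro M _ _ _ i hi
      rw [LoccohA.DzDim.vanAt_iff_subsingleton]
      exact Module.notMem_support_iff.mp (h.notMem_of_gt P M i hi)
    have h1 := LoccohA.DzTrunc2.extract (LoccohA.DzExact.closed_vanAt.{u, u + 1} A P.asIdeal) ω
      ((n : ℤ) - e) c b c ω
      ((LoccohA.DzExact.closed_vanAt.{u, u + 1} A P.asIdeal).zero _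
        (hω.ext_self_subsingleton _ (by omega)))
      (fun i hi => by
        have := hω.finite_cohomology i
        exact hvan (Dual.HD A ω i) _ (by omega))
      (fun i hi => LoccohA.DzTrunc2.P_of_isZero
        (LoccohA.DzExact.closed_vanAt.{u, u + 1} A P.asIdeal) ω i _ ω (hzero i hi))
    have e1 : (n : ℤ) - e + c = -δ P - e := by omega
    rw [e1] at h1
    rw [Module.notMem_support_iff]
    exact LoccohA.DzDim.vanAt_iff_subsingleton.mp h1
  calc min ((2 : ℕ) : WithBot ℕ∞) (Module.supportDim (Localization.AtPrime P.asIdeal)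
        (LocalizedModule P.asIdeal.primeCompl (Dual.HD A ω c)))
      ≤ min ((2 : ℕ) : WithBot ℕ∞) (n : WithBot ℕ∞) := min_le_min le_rfl hdim
    _ ≤ ((((min 2 n : ℕ) : ℕ∞)) : WithBot ℕ∞) := by
        rcases le_total 2 n with h2 | h2
        · rw [min_eq_left h2]; exact min_le_left _ _
        · rw [min_eq_right h2]; exact min_le_right _ _
    _ ≤ _ := WithBot.coe_le_coe.mpr key

/-- `(S_2)` for the localization at `P` of the lowest cohomology module. -/
theorem hasSk_two_localized (hω : Dual.IsDualizing A ω) (h : IsDelta ω δ) (c : ℤ)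
    (hzero : ∀ i : ℤ, i < c → CategoryTheory.Limits.IsZero
      ((DerivedCategory.homologyFunctor (ModuleCat.{u} A) i).obj ω))
    (P : PrimeSpectrum A) (hP : ∀ q : PrimeSpectrum A, q ≤ P → δ q ≤ -c) :
    LocCoh.HasSk 2 (Localization.AtPrime P.asIdeal)
      (LocalizedModule P.asIdeal.primeCompl (Dual.HD A ω c)) := by
  intro p hp
  have hle : p.comap (algebraMap A (Localization.AtPrime P.asIdeal)) ≤ P.asIdeal := by
    have h1 : (IsLocalRing.maximalIdeal (Localization.AtPrime P.asIdeal)).comap
        (algebraMap A (Localization.AtPrime P.asIdeal)) = P.asIdeal :=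
      Localization.AtPrime.comap_maximalIdeal (I := P.asIdeal)
    exact (Ideal.comap_mono (IsLocalRing.le_maximalIdeal hp.ne_top)).trans h1.le
  exact Ega4B.SkLocal.minmono
    (Ega4B.LocTransfer.supportDim_eq_of_isLocalization P.asIdeal.primeCompl
      (LocalizedModule.mkLinearMap P.asIdeal.primeCompl (Dual.HD A ω c)) p)
    (Ega4B.LocTransfer.depth_eq_of_isLocalization P.asIdeal.primeCompl
      (LocalizedModule.mkLinearMap P.asIdeal.primeCompl (Dual.HD A ω c)) p)
    (min_le_depth_lowest hω h c hzero ⟨p.comap (algebraMap A _), inferInstance⟩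
      (fun q hq => hP q (hq.trans hle)))

end Groth.Agent.Dual.H342.S2Alg
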