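import Groth.Agent.PerfA.TildeSupp
import Groth.Agent.PerfC.TildeStalk
import Groth.Agent.Dcoh.StalkRes
import Groth.Agent.Ega4B.SkLocal

/-!
# Stalks of modules on a scheme in an affine chart, semilinearly

For an open immersion `j : Spec R ⟶ X` and `M : X.Modules` with `M|_{Spec R} ≅ N~`, the pair
`(O_{X, j p}, M_{j p})` is isomorphic to `(R_p, N_p)`.
-/

set_option autoImplicit false
universe u

open CategoryTheory CategoryTheory.Limits AlgebraicGeometry Opposite TopologicalSpace
open Groth.Agent.PerfC.TildeStalk Groth.Agent.Dcoh.Stalk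
attribute [local instance] HasDerivedCategory.standard

namespace Groth.Agent.Dual.H342.StalkChart

/-- The local ring and the stalk of `N~` at a prime `p`. -/
theorem tilde_semilinear (R : CommRingCat.{u}) (N : ModuleCat.{u} R) (p : Spec R) :
    ∃ (σ : Localization.AtPrime (px p) ≃+* (Spec R).presheaf.stalk p)
      (τ : LocalizedModule (px p).primeCompl N ≃+ (stalkF p).obj (tilde N)),
      ∀ r m, τ (r • m) = σ r • τ m := by
  let : Algebra R ((Spec R).presheaf.stalk p) := (alpha p).toAlgebra
  let : Module R ((stalkF p).obj (tilde N)) := Module.compHom _ (alpha p)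
  have : IsScalarTower R ((Spec R).presheaf.stalk p) ((stalkF p).obj (tilde N)) :=
    IsScalarTower.of_algebraMap_smul fun _ _ => rfl
  have := isLocalization_alpha p
  let g : N →ₗ[R] ((stalkF p).obj (tilde N)) :=
    { toFun := (toSt p N).hom
      map_add' := fun a b => map_add _ a b
      map_smul' := fun r a => LinearMap.map_smul (toSt p N).hom r a }
  have : IsLocalizedModule (px p).primeCompl g := isLocalizedModule_toSt p N
  let σ : Localization.AtPrime (px p) ≃ₐ[R] (Spec R).presheaf.stalk p :=
    IsLocalization.algEquiv (px p).primeCompl _ _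
  let : Module (Localization.AtPrime (px p)) ((stalkF p).obj (tilde N)) :=
    Module.compHom _ (σ : Localization.AtPrime (px p) →+* (Spec R).presheaf.stalk p)
  have : IsScalarTower R (Localization.AtPrime (px p)) ((stalkF p).obj (tilde N)) :=
    IsScalarTower.of_algebraMap_smul (fun r m => by
      change σ (algebraMap R (Localization.AtPrime (px p)) r) • m = r • m
      rw [σ.commutes, algebraMap_smul])
  let e₀ : LocalizedModule (px p).primeCompl N ≃ₗ[R] ((stalkF p).obj (tilde N)) :=
    IsLocalizedModule.iso (px p).primeCompl g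
  let e₁ : LocalizedModule (px p).primeCompl N ≃ₗ[Localization.AtPrime (px p)]
      ((stalkF p).obj (tilde N)) :=
    e₀.extendScalarsOfIsLocalization (px p).primeCompl (Localization.AtPrime (px p))
  exact ⟨σ.toRingEquiv, e₁.toAddEquiv, fun r m => e₁.map_smul r m⟩

/-- The local ring and the stalk of `M` at `j p`, for an open immersion `j : Spec R ⟶ X` with
`M|_{Spec R} ≅ N~`. -/
theorem exists_semilinear {X : Scheme.{u}} (R : CommRingCat.{u}) (j : Spec R ⟶ X)
    [IsOpenImmersion j] (M : X.Modules) (N : ModuleCat.{u} R) (e : M.restrict j ≅ tilde N)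
    (p : Spec R) :
    ∃ (σ : Localization.AtPrime (px p) ≃+* X.presheaf.stalk (j p))
      (τ : LocalizedModule (px p).primeCompl N ≃+ M.presheaf.stalk (j p)),
      ∀ r m, τ (r • m) = σ r • τ m := by
  obtain ⟨σ, τ, h⟩ := tilde_semilinear R N p
  let e' : ((stalkF p).obj (M.restrict j)) ≃ₗ[(Spec R).presheaf.stalk p]
      ((stalkF p).obj (tilde N)) := ((stalkF p).mapIso e).toLinearEquiv
  let ρ := Dcoh.StalkRes.ringIso j p
  refine ⟨σ.trans ρ.symm, (τ.trans e'.symm.toAddEquiv).trans (Dcoh.StalkRes.addIso j M p), ?_⟩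
  intro r m
  change Dcoh.StalkRes.addIso j M p (e'.symm (τ (r • m))) =
    ρ.symm (σ r) • Dcoh.StalkRes.addIso j M p (e'.symm (τ m))
  rw [h, map_smul]
  have h2 := Dcoh.StalkRes.addIso_smul j M p (ρ.symm (σ r)) (e'.symm (τ m))
  rw [show Dcoh.StalkRes.ringIso j p (ρ.symm (σ r)) = σ r from ρ.apply_symm_apply _] at h2
  exact h2

end Groth.Agent.Dual.H342.StalkChart
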