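import Groth.Agent.PerfA.TopDim

/-!
# Krull dimension of a subset from chains of specializations
-/

set_option autoImplicit false
universe u
open TopologicalSpace Order Topology

namespace Groth.Agent.Dual.H342.TopChain

/-- A chain of specializations gives a lower bound for the dimension of the space. -/
theorem le_topologicalKrullDim {Y : Type*} [TopologicalSpace Y] (n : ℕ) (t : Fin (n + 1) → Y)
    (h : ∀ i j, i < j → t i ⤳ t j ∧ ¬ t j ⤳ t i) : (n : WithBot ℕ∞) ≤ topologicalKrullDim Y := by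
  let c : Fin (n + 1) → IrreducibleCloseds Y := fun i =>
    ⟨closure {t (Fin.rev i)}, isIrreducible_singleton.closure, isClosed_closure⟩
  have hc : StrictMono c := by
    intro i j hij
    have h1 := h (Fin.rev j) (Fin.rev i) (Fin.rev_lt_rev.2 hij)
    have hle : ∀ a b : Fin (n + 1), c a ≤ c b ↔ t (Fin.rev b) ⤳ t (Fin.rev a) := by
      intro a b
      rw [specializes_iff_closure_subset]
      exact Iff.rfl
    rw [lt_iff_le_not_ge, hle, hle]
    exact h1
  exact Order.le_krullDim_iff.2 ⟨{ length := n, toFun := c, step := fun i => hc Fin.castSucc_lt_succ }, rfl⟩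

/-- The same for a subset. -/
theorem le_topologicalKrullDim_subset {Y : Type*} [TopologicalSpace Y] [T0Space Y] (Z : Set Y)
    (n : ℕ) (t : Fin (n + 1) → Y) (ht : ∀ i, t i ∈ Z)
    (h : ∀ i j, i < j → t i ⤳ t j ∧ t i ≠ t j) : (n : WithBot ℕ∞) ≤ topologicalKrullDim Z := by
  refine le_topologicalKrullDim n (fun i => (⟨t i, ht i⟩ : Z)) fun i j hij => ?_
  have h1 := h i j hij
  rw [subtype_specializes_iff, subtype_specializes_iff]
  exact ⟨h1.1, fun h2 => h1.2 (h1.1.antisymm h2).eq⟩

/-- A closed subset of dimension `n` of a sober space contains a chain of specializations of length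
`n`. -/
theorem exists_chain_of_dim {Y : Type*} [TopologicalSpace Y] [QuasiSober Y] [T0Space Y] (Z : Set Y)
    (hZ : IsClosed Z) (n : ℕ) (hn : (n : WithBot ℕ∞) ≤ topologicalKrullDim Z) :
    ∃ t : Fin (n + 1) → Y, (∀ i, t i ∈ Z) ∧ ∀ i j, i < j → t i ⤳ t j ∧ t i ≠ t j := by
  have : QuasiSober Z := hZ.isClosedEmbedding_subtypeVal.quasiSober
  obtain ⟨s, hs⟩ := Order.le_krullDim_iff.1 hn
  obtain ⟨t, ht⟩ := Groth.Agent.PerfA.TopDim.exists_chain s
  subst hs
  refine ⟨fun i => (t (Fin.rev i) : Z), fun i => (t (Fin.rev i)).2, fun i j hij => ?_⟩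
  have h1 := ht _ _ (Fin.rev_lt_rev.2 hij)
  exact ⟨h1.1.map continuous_subtype_val, fun h3 => h1.2 (Subtype.ext h3)⟩

end Groth.Agent.Dual.H342.TopChain
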