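import Groth.Agent.PerfA.CohDim
import Groth.Agent.Dual.H342.S2Alg
import Groth.Agent.Dual.H342.StalkChart
import Groth.Agent.Dual.H342.TopChain
import Groth.Agent.CalgA.DepthSmall

/-!
# Charts at closed points for complexes which are locally dualizing and normalized at closed points

`Groth.Agent.PerfA.CohDim.Hyp K`: `K` is locally (the tilde of) a dualizing complex, normalized at
the closed points.  We attach to every closed point an affine chart with its dimension function.
-/

set_option autoImplicit false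
universe u
open CategoryTheory CategoryTheory.Limits AlgebraicGeometry TopologicalSpace Opposite Topology
attribute [local instance] HasDerivedCategory.standard

namespace Groth.Agent.Dual.H342.PtChart

open AlgebraicGeometry.Scheme.Modules Groth.Agent.PerfA.Restrict Groth.Agent.PerfA.TildeSupp
  Groth.Agent.PerfA.PointHom Groth.Agent.PerfC.Supp Groth.Agent.CohqB Groth.Agent.PerfA.CohDim
  Groth.Agent.CalgB.DzData Groth.Agent.PerfA Groth.Agent

variable {X : Scheme.{u}}

/-- An affine chart at a point `z`, given by a maximal ideal `y`, in which `K` is the tilde of a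
dualizing complex `ω` with dimension function `δ`, and `δ y = 0`. -/
structure Chart (K : DCoh.D X) (z : X) where
  A : Type u
  [ring : CommRing A]
  [noeth : IsNoetherianRing A]
  j : Spec (CommRingCat.of A) ⟶ X
  [oi : IsOpenImmersion j]
  ω : Dual.D A
  dual : Dual.IsDualizing A ω
  iso : (restrictD j).obj K ≅ (DCoh.tildeD (CommRingCat.of A)).obj ω
  y : PrimeSpectrum A
  max : y.asIdeal.IsMaximal
  hy : j (show Spec (CommRingCat.of A) from y) = z
  δ : PrimeSpectrum A → ℤ
  isDelta : IsDelta ω δ
  zero : δ y = 0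

attribute [instance] Chart.ring Chart.noeth Chart.oi

/-- Charts exist at closed points. -/
theorem nonempty_chart {K : DCoh.D X} (hK : Hyp K) (z : X) (hz : IsClosed ({z} : Set X)) :
    Nonempty (Chart K z) := by
  obtain ⟨R, j, hj, y, hy⟩ := Scheme.exists_Spec_apply_eq z
  change Spec (CommRingCat.of R) ⟶ X at j
  change PrimeSpectrum R at y
  obtain ⟨ω, hω, ⟨e⟩⟩ := hK.exists_dual R j
  have hcl : IsClosed ({y} : Set (PrimeSpectrum R)) := by
    have h1 : ({y} : Set (PrimeSpectrum R)) =
        (j.base : Spec (CommRingCat.of R) → X) ⁻¹' ({z} : Set X) := by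
      ext w
      constructor
      · rintro rfl
        exact hy
      · intro hw
        exact j.isOpenEmbedding.injective (hw.trans hy.symm)
    rw [h1]
    exact hz.preimage j.continuous
  have hm : y.asIdeal.IsMaximal := (PrimeSpectrum.isClosed_singleton_iff_isMaximal y).1 hcl
  have hpt : ∀ i : ℤ, i ≠ 0 → Subsingleton (Dual.inD R (R ⧸ y.asIdeal) ⟶ ω⟦i⟧) :=
    hK.point R j ω e y.asIdeal y rfl (by
      have : j (show Spec (CommRingCat.of R) from y) = z := hy
      erw [this]
      exact hz)
  have : IsNoetherianRing R := hω.isNoetherianRing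
  obtain ⟨δ, hδ⟩ := exists_isDelta hω
  refine ⟨{ A := R, j := j, ω := ω, dual := hω, iso := e, y := y, max := hm, hy := hy, δ := δ,
            isDelta := hδ, zero := ?_ }⟩
  by_contra hne
  have h1 : y ∈ Module.support R (LoccohA.DExt.E ω (-δ y) (R ⧸ y.asIdeal)) := (hδ.mem _ _).mpr rfl
  have h2 : Subsingleton (LoccohA.DExt.E ω (-δ y) (R ⧸ y.asIdeal)) := hpt _ (by omega)
  rw [Module.support_eq_empty] at h1
  exact h1

namespace Chart

variable {K : DCoh.D X} {z : X} (c : Chart K z)

/-- The point of `X` attached to a prime. -/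
noncomputable def pt (q : PrimeSpectrum c.A) : X := c.j (show Spec (CommRingCat.of c.A) from q)

theorem pt_y : c.pt c.y = z := c.hy

theorem le_iff (q q' : PrimeSpectrum c.A) : c.pt q ⤳ c.pt q' ↔ q ≤ q' := by
  rw [PrimeSpectrum.le_iff_specializes]
  exact c.j.isOpenEmbedding.isInducing.specializes_iff

theorem pt_injective : Function.Injective c.pt := c.j.isOpenEmbedding.injective

/-- Points specializing to `z` lie in the chart. -/
theorem exists_prime (x : X) (hx : x ⤳ z) : ∃ q : PrimeSpectrum c.A, q ≤ c.y ∧ c.pt q = x := by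
  obtain ⟨q, hq⟩ : ∃ q : PrimeSpectrum c.A, c.pt q = x :=
    hx.mem_open c.j.isOpenEmbedding.isOpen_range ⟨c.y, c.hy⟩
  refine ⟨q, ?_, hq⟩
  rw [← c.le_iff, hq, c.pt_y]
  exact hx

theorem mem_supp_iff (i : ℤ) (q : PrimeSpectrum c.A) :
    c.pt q ∈ supp K i ↔ q ∈ Module.support c.A (Dual.HD c.A c.ω i) :=
  Groth.Agent.PerfA.CohDim.mem_supp_iff K c.j c.ω c.iso i q

/-- `0 ≤ δ q ≤ dim X` for the points `q` specializing to `y`. -/
theorem delta_bounds (n : ℕ) (hn : topologicalKrullDim X ≤ n) (q : PrimeSpectrum c.A)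
    (hq : q ≤ c.y) : 0 ≤ c.δ q ∧ c.δ q ≤ n := by
  have h0 : 0 ≤ c.δ q := by
    have := LoccohA.DimFun.le_of_le c.isDelta.cov hq
    rwa [c.zero] at this
  refine ⟨h0, ?_⟩
  obtain ⟨s, h1, h2, h3⟩ := LoccohA.DimFun.exists_ltSeries c.isDelta.cov hq
  rw [c.zero, zero_add] at h3
  have h4 : (s.length : WithBot ℕ∞) ≤ ringKrullDim c.A := Order.LTSeries.length_le_krullDim s
  have h5 : topologicalKrullDim (PrimeSpectrum c.A) ≤ topologicalKrullDim X :=
    c.j.isOpenEmbedding.isInducing.topologicalKrullDim_le
  rw [PrimeSpectrum.topologicalKrullDim_eq_ringKrullDim] at h5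
  have h6 : (s.length : WithBot ℕ∞) ≤ (n : WithBot ℕ∞) := h4.trans (h5.trans hn)
  have h7 : s.length ≤ n := by exact_mod_cast h6
  omega

/-- The comparison of `H^i(K)` restricted to the chart with the tilde of `H^i(ω)`. -/
noncomputable def homIso (i : ℤ) : (DCoh.HD K i).restrict c.j ≅
    tilde (R := CommRingCat.of c.A)
      ((DerivedCategory.homologyFunctor (ModuleCat.{u} c.A) i).obj c.ω) :=
  (HDrestrict c.j K i).symm ≪≫ (DerivedCategory.homologyFunctor _ i).mapIso c.iso ≪≫
    HDtilde (R := CommRingCat.of c.A) c.ω i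

theorem exists_semilinear (i : ℤ) (q : PrimeSpectrum c.A) :
    ∃ (σ : Localization.AtPrime q.asIdeal ≃+* X.presheaf.stalk (c.pt q))
      (τ : LocalizedModule q.asIdeal.primeCompl (Dual.HD c.A c.ω i) ≃+
        (DCoh.HD K i).presheaf.stalk (c.pt q)),
      ∀ r m, τ (r • m) = σ r • τ m :=
  StalkChart.exists_semilinear (CommRingCat.of c.A) c.j (DCoh.HD K i) _ (c.homIso i) q

/-- Vanishing of the cohomology of `ω` from that of `K`. -/
theorem isZero_homology (i : ℤ) (h : IsZero (DCoh.HD K i)) :
    IsZero ((DerivedCategory.homologyFunctor (ModuleCat.{u} c.A) i).obj c.ω) := by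
  have h1 : Module.support c.A (Dual.HD c.A c.ω i) = ∅ := by
    rw [Set.eq_empty_iff_forall_notMem]
    intro q hq
    rw [← c.mem_supp_iff, (supp_eq_empty_iff K i).2 h] at hq
    exact hq
  have h2 : Subsingleton (Dual.HD c.A c.ω i) := Module.support_eq_empty_iff.mp h1
  exact ModuleCat.isZero_of_subsingleton _

end Chart

end Groth.Agent.Dual.H342.PtChart
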